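import Groth.Agent.Gaga.H976.Defs
import Mathlib.AlgebraicGeometry.Morphisms.ClosedImmersion

/-!
# Stalks of ideal sheaves of closed immersions

* `stIdeal_ker i w`: the ideal of the stalk generated by the kernel of a closed immersion `i` is the
  kernel of the map of stalks;
* `stIdeal_eq_top`: off the support the ideal of the stalk is the unit ideal;
* `stalkMap_comp_eq_zero`-type lemmas.
-/

set_option autoImplicit false

open CategoryTheory AlgebraicGeometry TopologicalSpace Opposite

noncomputable section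

namespace Groth.Agent.Gaga.H625.StIdeal

open Groth.Agent.Gaga.H976.Defs

theorem mem_stIdeal_of_mem {X : Scheme.{0}} (I : X.IdealSheafData) (x : X) (U : X.affineOpens)
    (hx : x ∈ U.1) (s : Γ(X, U.1)) (hs : s ∈ I.ideal U) :
    (X.presheaf.germ U.1 x hx).hom s ∈ stIdeal I x := by
  have h1 : (X.presheaf.germ U.1 x hx).hom s ∈ (I.ideal U).map (X.presheaf.germ U.1 x hx).hom :=
    Ideal.mem_map_of_mem _ hs
  exact (le_iSup_of_le U (le_iSup_of_le hx le_rfl) : _ ≤ stIdeal I x) h1

/-- The stalk of the ideal sheaf of a closed immersion. -/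
theorem stIdeal_ker {W E : Scheme.{0}} (i : W ⟶ E) [IsClosedImmersion i] (w : W) :
    stIdeal i.ker (i w) = RingHom.ker (i.stalkMap w).hom := by
  apply le_antisymm
  · refine iSup_le fun U => iSup_le fun hx => ?_
    rw [Ideal.map_le_iff_le_comap]
    intro s hs
    rw [Scheme.Hom.ker_apply, RingHom.mem_ker] at hs
    rw [Ideal.mem_comap, RingHom.mem_ker]
    have h := Scheme.Hom.germ_stalkMap_apply i U.1 w hx s
    erw [h, hs]
    exact map_zero _
  · intro b hb
    rw [RingHom.mem_ker] at hb
    obtain ⟨V, hV, s, hs⟩ := E.presheaf.exists_germ_eq (x := i w) b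
    have h1 := Scheme.Hom.germ_stalkMap_apply i V w hV s
    have h2 : (W.presheaf.germ (i ⁻¹ᵁ V) w hV).hom ((i.app V).hom s) = 0 := by
      rw [← hb, ← hs]
      exact h1.symm
    have h3 : (W.presheaf.germ (i ⁻¹ᵁ V) w hV).hom ((i.app V).hom s) =
        (W.presheaf.germ (i ⁻¹ᵁ V) w hV).hom 0 := by
      rw [h2, map_zero]
    obtain ⟨W', hW', k1, k2, h4⟩ := W.presheaf.germ_eq w hV hV _ _ h3
    -- an open of `E` restricting to something inside `W'`
    obtain ⟨V', hV', hVW⟩ := (i.isEmbedding.isOpen_iff).1 W'.2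
    have hz : i w ∈ V' := by
      have : w ∈ (i ⁻¹' V' : Set W) := hVW ▸ hW'
      exact this
    obtain ⟨_, ⟨U, hU, rfl⟩, hzU, hUV⟩ := E.isBasis_affineOpens.exists_subset_of_mem_open
      (show i w ∈ (V : Set E) ∩ V' from ⟨hV, hz⟩) (V.2.inter hV')
    have hUV1 : U ≤ V := fun y hy => (hUV hy).1
    have hUW : i ⁻¹ᵁ U ≤ W' := by
      intro y hy
      have h5 : i y ∈ V' := (hUV hy).2
      have h6 : y ∈ (i ⁻¹' V' : Set W) := h5
      rw [hVW] at h6
      exact h6
    let U' : E.affineOpens := ⟨U, hU⟩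
    have h7 : (E.presheaf.germ U (i w) hzU).hom ((E.presheaf.map (homOfLE hUV1).op).hom s) = b := by
      rw [← hs]
      exact E.presheaf.germ_res_apply (homOfLE hUV1) (i w) hzU s
    rw [← h7]
    apply mem_stIdeal_of_mem i.ker (i w) U' hzU
    rw [Scheme.Hom.ker_apply, RingHom.mem_ker]
    have h8 : (i.app U).hom ((E.presheaf.map (homOfLE hUV1).op).hom s) =
        (W.presheaf.map (homOfLE (i.preimage_mono hUV1)).op).hom ((i.app V).hom s) := by
      have h := i.naturality (homOfLE hUV1).op
      exact congr($(h).hom s)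
    change (i.app U).hom ((E.presheaf.map (homOfLE hUV1).op).hom s) = 0
    rw [h8]
    have h9 : (W.presheaf.map (homOfLE (i.preimage_mono hUV1)).op).hom ((i.app V).hom s) =
        (W.presheaf.map (homOfLE hUW).op).hom ((W.presheaf.map k1.op).hom ((i.app V).hom s)) := by
      have h : W.presheaf.map (homOfLE (i.preimage_mono hUV1)).op =
          W.presheaf.map k1.op ≫ W.presheaf.map (homOfLE hUW).op := by
        rw [← Functor.map_comp]
        rfl
      exact congr($(h).hom ((i.app V).hom s))
    rw [h9]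
    have h10 : (W.presheaf.map k1.op).hom ((i.app V).hom s) = 0 := by
      have := h4
      simp only [map_zero] at this
      exact this
    rw [h10, map_zero]

/-- Off the support the ideal of the stalk is the unit ideal. -/
theorem stIdeal_eq_top {X : Scheme.{0}} (I : X.IdealSheafData) (x : X) (hx : x ∉ I.support) :
    stIdeal I x = ⊤ := by
  obtain ⟨_, ⟨U, hU, rfl⟩, hxU, -⟩ := X.isBasis_affineOpens.exists_subset_of_mem_open
    (Set.mem_univ x) isOpen_univ
  let U' : X.affineOpens := ⟨U, hU⟩
  rw [Scheme.IdealSheafData.mem_support_iff_of_mem (U := U') hxU, Scheme.mem_zeroLocus_iff] at hx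
  push Not at hx
  obtain ⟨s, hs, hs'⟩ := hx
  have h1 : IsUnit ((X.presheaf.germ U x hxU).hom s) :=
    (X.mem_basicOpen s x hxU).1 hs'
  exact Ideal.eq_top_of_isUnit_mem _ (mem_stIdeal_of_mem I x U' hxU s hs) h1

end Groth.Agent.Gaga.H625.StIdeal
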